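import Mathlib
import Cfsg.Prelude.Def_Blocks
import Cfsg.Agent.H540.ClassNum
import Cfsg.Agent.H934.OutB

/-!
# k(G) < |V| for coprime linear groups: definitions and interfaces (project of helper960)

`V` is a finite vector space over `ZMod p`, `G` a group of automorphisms of `V` of order prime
to `p`, `k(G) = Nat.card (ConjClasses G)`.

* `Lt n` : `k(G) < n` for all such `G` on spaces `V` of order `n`;
* `SD G` : the semidirect product `V ⋊ G`;
* `ind G W` : the group induced on the subspace `W` by its stabilizer in `G`;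
* `Blk G W` : the subspaces `W i` form a direct decomposition of `V` permuted by `G`;
* `GammaOne H` : `H` is contained in a group `ΓL_1`;
* `SubBd H c` : `k(R) ≤ c` for all `R ⊴ R' ⊴ H`;
* `HasRep T p f d` : a perfect central extension `E` of the simple group `T`, of order prime to `p`, has a
  faithful absolutely irreducible representation of degree `d` over the field with `p ^ f` elements;
* `Sit T p f d` : numerical consequences of `HasRep`;
* `Row T` : the inequality needed for the simple group `T`;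
* `PCoreTriv q R` : `O_q(R) = 1`.
-/

set_option autoImplicit false

namespace Cfsg.Agent.H960.KGV

/-- all `p'`-groups of automorphisms of vector spaces over `ZMod p` of order `n` have fewer than `n`
conjugacy classes -/
def Lt (n : ℕ) : Prop :=
  ∀ (p : ℕ) [Fact p.Prime] (V : Type) [AddCommGroup V] [Module (ZMod p) V] [Finite V],
    Nat.card V = n → 1 < n → ∀ G : Subgroup (V ≃ₗ[ZMod p] V), ¬ p ∣ Nat.card G →
      Nat.card (ConjClasses G) < n

section Lin

variable {p : ℕ} {V : Type} [AddCommGroup V] [Module (ZMod p) V]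

/-- the action of `G` on `V` written multiplicatively -/
def sd (G : Subgroup (V ≃ₗ[ZMod p] V)) : G →* MulAut (Multiplicative V) where
  toFun g := AddEquiv.toMultiplicative (g : V ≃ₗ[ZMod p] V).toAddEquiv
  map_one' := rfl
  map_mul' _ _ := rfl

/-- the semidirect product `V ⋊ G` -/
abbrev SD (G : Subgroup (V ≃ₗ[ZMod p] V)) : Type := Multiplicative V ⋊[sd G] G

/-- the group induced on the subspace `W` by its stabilizer in `G` -/
def ind (G : Subgroup (V ≃ₗ[ZMod p] V)) (W : Submodule (ZMod p) V) :
    Subgroup (W ≃ₗ[ZMod p] W) where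
  carrier := {h | ∃ g ∈ G, ∀ w : W, g (w : V) = (h w : V)}
  one_mem' := ⟨1, G.one_mem, fun _ => rfl⟩
  mul_mem' := by
    rintro a b ⟨g, hg, h1⟩ ⟨g', hg', h2⟩
    refine ⟨g * g', G.mul_mem hg hg', fun w => ?_⟩
    show g (g' (w : V)) = (a (b w) : V)
    rw [h2, h1]
  inv_mem' := by
    rintro a ⟨g, hg, h1⟩
    refine ⟨g⁻¹, G.inv_mem hg, fun w => ?_⟩
    show g.symm (w : V) = (a.symm w : V)
    rw [LinearEquiv.symm_apply_eq, h1, a.apply_symm_apply]

/-- the subspaces `W i` form a direct decomposition of `V` (into nonzero subspaces) permuted by `G` -/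
structure Blk (G : Subgroup (V ≃ₗ[ZMod p] V)) {ι : Type} (W : ι → Submodule (ZMod p) V) : Prop where
  /-- the sum is direct -/
  indep : iSupIndep W
  /-- the sum is `V` -/
  sup : iSup W = ⊤
  /-- the blocks are nonzero -/
  ne_bot : ∀ i, W i ≠ ⊥
  /-- the blocks are permuted by `G` -/
  perm : ∀ g ∈ G, ∀ i, ∃ j, (W i).map (g : V ≃ₗ[ZMod p] V).toLinearMap = W j

/-- `G` permutes the blocks transitively -/
def Trans (G : Subgroup (V ≃ₗ[ZMod p] V)) {ι : Type} (W : ι → Submodule (ZMod p) V) : Prop :=
  ∀ i j, ∃ g ∈ G, (W i).map (g : V ≃ₗ[ZMod p] V).toLinearMap = W j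

/-- `H` is contained in a group `ΓL_1` -/
def GammaOne (H : Subgroup (V ≃ₗ[ZMod p] V)) : Prop :=
  ∃ (K : Type) (_ : Field K) (_ : Finite K) (e : V ≃+ K), ∀ h ∈ H, ∃ (a : K) (σ : K ≃+* K),
    ∀ v, e (h v) = a * σ (e v)

end Lin

/-- `k(R) ≤ c` for all `R ⊴ R' ⊴ H` -/
def SubBd (H : Type) [Group H] (c : ℕ) : Prop :=
  ∀ (R' : Subgroup H) (_ : R'.Normal) (R : Subgroup R') (_ : R.Normal),
    Nat.card (ConjClasses R) ≤ c

/-- `O_q(R) = 1` -/
def PCoreTriv (q : ℕ) (R : Type) [Group R] : Prop :=
  ∀ N : Subgroup R, N.Normal → IsPGroup q N → N = ⊥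

/-- a perfect central extension `E` of `T`, of order prime to `p`, with a faithful absolutely
irreducible representation of degree `d` over the field with `p ^ f` elements -/
def HasRep (T : Type) [Group T] (p f d : ℕ) : Prop :=
  ∃ (E : Type) (_ : Group E) (_ : Finite E) (F : Type) (_ : Field F) (_ : Finite F)
    (ρ : E →* GL (Fin d) F),
    commutator E = ⊤ ∧ Nonempty (E ⧸ Subgroup.center E ≃* T) ∧ ¬ p ∣ Nat.card E ∧
    Nat.card F = p ^ f ∧ Function.Injective ρ ∧
    (∀ U : Submodule F (Fin d → F), (∀ e : E, ∀ u ∈ U,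
      (ρ e : Matrix (Fin d) (Fin d) F).mulVec u ∈ U) → U = ⊥ ∨ U = ⊤) ∧
    (∀ M : Matrix (Fin d) (Fin d) F, (∀ e : E, M * (ρ e : Matrix (Fin d) (Fin d) F) =
      (ρ e : Matrix (Fin d) (Fin d) F) * M) → ∃ c : F, M = c • (1 : Matrix (Fin d) (Fin d) F))

/-- numerical consequences of `HasRep T p f d` (with `3 ≤ d`) for the simple group `T` -/
structure Sit (T : Type) [Group T] (p f d : ℕ) : Prop where
  /-- `p` is a prime -/
  prime : p.Prime
  /-- the field has more than one element -/
  f_pos : 1 ≤ f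
  /-- the degree is at least 3 -/
  three_le : 3 ≤ d
  /-- `p` does not divide the order of `T` -/
  coprime : ¬ p ∣ Nat.card T
  /-- the original datum -/
  rep : HasRep T p f d
  /-- Lagrange: `|T|` divides `|PGL_d(Q)|`, hence its `p'`-part -/
  dvd : Nat.card T ∣ ∏ i ∈ Finset.Icc 2 d, ((p ^ f) ^ i - 1)
  /-- counting the points of the projective space: a nontrivial orbit of `T` on them -/
  index : ∃ H : Subgroup T, H ≠ ⊤ ∧ H.index * (p ^ f - 1) < (p ^ f) ^ d
  /-- a nontrivial irreducible complex character of `T` of degree less than `d ^ 2` (action on the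
  `d × d` matrices modulo scalars) -/
  adj : ∃ χ : Cfsg.IrrCharacter T, (χ : T → ℂ) ≠ (fun _ => 1) ∧
    Cfsg.charDegree (χ : T → ℂ) ≤ d ^ 2 - 1

/-- **the inequality needed for the simple group `T`**: `2 f (Q - 1) k(T) |Out T| ≤ Q ^ d`, `Q = p ^ f`,
for every faithful absolutely irreducible projective representation of degree `d ≥ 3` over the field with
`Q` elements (`p` not dividing `|T|`). -/
def Row (T : Type) [Group T] : Prop :=
  ∀ p f d : ℕ, Sit T p f d →
    2 * f * (p ^ f - 1) * (Nat.card (ConjClasses T) * Nat.card (Cfsg.Out T)) ≤ (p ^ f) ^ d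

end Cfsg.Agent.H960.KGV
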